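import Mathlib
import Cfsg.Agent.AbConjSolvable.Cyclic
import Cfsg.Agent.Constrained.Fitting
import Cfsg.Agent.Coprime.Generation
import Cfsg.Agent.S3908
import Cfsg.Agent.S3909
import Cfsg.Agent.S3912

/-!
Sylow subgroups of the complement of the Fitting subgroup, in a solvable group with conjugate
abelian subgroups.
-/

set_option autoImplicit false
set_option linter.style.haveILetI false

namespace CfsgLib.AbConjSolvable

open Cfsg CfsgLib.Constrained
open scoped commutatorElement

variable {K : Type*} [Group K] [Finite K]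

/-- The properties of the complement. -/
structure RankHyp (K : Type*) [Group K] : Prop where
  solvable : Group.IsSolvable K
  abConj : Cfsg.Agent.S3912.AbConj K
  uniq : ∀ s : ℕ, s.Prime → pCore s K ≠ ⊥ → ∀ x y : K, orderOf x = s → orderOf y = s →
    y ∈ Subgroup.zpowers x

theorem RankHyp.mem_normal (h : RankHyp K) (N : Subgroup K) [N.Normal] {x y : K} (hx : x ∈ N)
    (hxy : orderOf x = orderOf y) : y ∈ N :=
  (Cfsg.Agent.S3909.result h.abConj N).1 y ⟨x, hx, hxy⟩

theorem RankHyp.exists_conj_zpowers (h : RankHyp K) {x y : K} (hxy : orderOf x = orderOf y) :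
    ∃ r : K, Subgroup.zpowers (r * x * r⁻¹) = Subgroup.zpowers y := by
  obtain ⟨r, hr⟩ := h.abConj (Subgroup.zpowers x) (Subgroup.zpowers y) inferInstance inferInstance
    (by rw [Nat.card_zpowers, Nat.card_zpowers, hxy])
  refine ⟨r, ?_⟩
  rw [hr, MonoidHom.map_zpowers]
  rfl

theorem RankHyp.isCyclic_pCore (h : RankHyp K) {s : ℕ} (hs : s.Prime) (hs2 : s ≠ 2) :
    IsCyclic (pCore s K) := by
  haveI := Fact.mk hs
  refine CfsgLib.PGroup.isCyclic_of_unique_subgroup hs2 isPGroup_pCore fun x y hx hy => ?_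
  have hne : pCore s K ≠ ⊥ := fun hb => hs.ne_one (by
    rw [← hx, show x = 1 from Subtype.ext (Subgroup.mem_bot.1 (hb.le x.2)), orderOf_one])
  obtain ⟨i, hi⟩ := Subgroup.mem_zpowers_iff.1 (h.uniq s hs hne (x : K) y
    (by rw [Subgroup.orderOf_coe, hx]) (by rw [Subgroup.orderOf_coe, hy]))
  exact ⟨i, Subtype.ext (by simpa using hi)⟩

theorem mem_pCore_of_mem_fitting {s k : ℕ} [Fact s.Prime] {x : K}
    (hx : x ∈ fittingSubgroup K) (ho : orderOf x = s ^ k) : x ∈ pCore s K := by
  have hpg : IsPGroup s (Subgroup.zpowers (⟨x, hx⟩ : fittingSubgroup K)) :=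
    IsPGroup.of_card (n := k) (by rw [Nat.card_zpowers, Subgroup.orderOf_mk, ho])
  obtain ⟨Q, hQ⟩ := hpg.exists_le_sylow
  exact map_sylow_le_pCore inferInstance isNilpotent_fitting Q
    ⟨_, hQ (Subgroup.mem_zpowers _), rfl⟩

theorem mem_fitting_of_centralizes [Group.IsSolvable K] {x : K}
    (h : ∀ s : ℕ, s.Prime → x ∈ Subgroup.centralizer (pCore s K : Set K)) :
    x ∈ fittingSubgroup K := by
  refine centralizer_fitting_le ?_
  have h1 : fittingSubgroup K ≤ Subgroup.centralizer ({x} : Set K) := by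
    rw [fitting_eq_iSup_pCore]
    refine iSup₂_le fun s hs y hy => ?_
    rw [Subgroup.mem_centralizer_iff]
    intro z hz
    rw [Set.mem_singleton_iff] at hz
    subst hz
    exact ((Subgroup.mem_centralizer_iff.1 (h s hs)) y hy).symm
  rw [Subgroup.mem_centralizer_iff]
  intro y hy
  exact ((Subgroup.mem_centralizer_iff.1 (h1 hy)) x rfl).symm

theorem commutator_mem_fitting (hsol : Group.IsSolvable K)
    (hcyc : ∀ s : ℕ, s.Prime → IsCyclic (pCore s K)) (a b : K) :
    ⁅a, b⁆ ∈ fittingSubgroup K := by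
  haveI := hsol
  refine mem_fitting_of_centralizes fun s hs => ?_
  haveI := hcyc s hs
  let φ : K →* MulAut (pCore s K) := MulAut.conjNormal
  have h1 : φ ⁅a, b⁆ = 1 := by
    rw [map_commutatorElement, commutatorElement_eq_one_iff_mul_comm]
    exact (IsCyclic.mulAutMulEquiv (pCore s K)).injective (by rw [map_mul, map_mul, mul_comm])
  rw [Subgroup.mem_centralizer_iff]
  intro y hy
  have h2 := congrArg (fun e : MulAut (pCore s K) => ((e ⟨y, hy⟩ : pCore s K) : K)) h1
  simp only [φ, MulAut.conjNormal_apply, MulAut.one_apply] at h2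
  exact (mul_inv_eq_iff_eq_mul.1 h2).symm

/-- The data of the quaternion core. -/
def EightCore (K : Type*) [Group K] : Prop :=
  Nat.card (pCore 2 K) = 8 ∧ CfsgLib.TwoGroup.AtMostOneInvolution (pCore 2 K) ∧
    ¬ IsCyclic (pCore 2 K)

theorem exists_mem_centralizer_of_cyclic {q s : ℕ} [Fact s.Prime] {E : Subgroup K}
    (hE : IsMulCommutative E) (hnc : ¬ IsCyclic E) (L : Subgroup K) [hLn : L.Normal]
    (hL : IsPGroup s L) (hLc : IsCyclic L) (hcop : (Nat.card E).Coprime (Nat.card L))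
    (hEq : ∀ x ∈ E, x ^ q = 1) :
    ∃ x ∈ E, x ≠ 1 ∧ L ≤ Subgroup.centralizer ({x} : Set K) := by
  obtain ⟨g, hg⟩ := hLc.exists_generator
  by_contra hcon
  push Not at hcon
  have hbad : L ≤ Subgroup.zpowers ((g : K) ^ s) := by
    refine CfsgLib.Coprime.le_of_centralizers hE hnc
      (by rw [Subgroup.normalizer_eq_top]; exact le_top) hcop fun a ha ha1 y hy => ?_
    obtain ⟨i, hi⟩ := Subgroup.mem_zpowers_iff.1 (hg ⟨y, hy.1⟩)
    have hi' : (g : K) ^ i = y := by simpa using congrArg Subtype.val hi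
    by_cases hdvd : (s : ℤ) ∣ i
    · obtain ⟨j, rfl⟩ := hdvd
      rw [← hi', zpow_mul, zpow_natCast]
      exact zpow_mem (Subgroup.mem_zpowers _) j
    exfalso
    apply hcon a ha ha1
    obtain ⟨k, hk⟩ := IsPGroup.iff_orderOf.1 hL g
    have hco : IsCoprime i ((s ^ k : ℕ) : ℤ) := by
      rw [Nat.cast_pow]
      exact ((Nat.prime_iff_prime_int.1 Fact.out).coprime_iff_not_dvd.2 hdvd).symm.pow_right
    obtain ⟨u, v, huv⟩ := hco
    have hgy : (g : K) = y ^ u := by
      rw [← hi', ← zpow_mul]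
      have : (g : K) ^ ((s ^ k : ℕ) : ℤ) = 1 := by
        rw [zpow_natCast, ← hk, ← Subgroup.coe_pow, pow_orderOf_eq_one, Subgroup.coe_one]
      calc (g : K) = (g : K) ^ (u * i + v * ((s ^ k : ℕ) : ℤ)) := by rw [huv, zpow_one]
        _ = (g : K) ^ (i * u) := by
            rw [zpow_add, mul_comm v, zpow_mul _ ((s ^ k : ℕ) : ℤ) v, this, one_zpow, mul_one, mul_comm]
    intro w hw
    obtain ⟨j, hj⟩ := Subgroup.mem_zpowers_iff.1 (hg ⟨w, hw⟩)
    have hj' : (g : K) ^ j = w := by simpa using congrArg Subtype.val hj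
    rw [← hj']
    rw [hgy]
    exact zpow_mem (zpow_mem (Subgroup.mem_inf.1 hy).2 u) j
  -- `L` is then trivial
  rcases eq_or_ne L ⊥ with hbot | hne
  · obtain ⟨x, hxE, hx1⟩ := (Subgroup.bot_or_exists_ne_one E).resolve_left fun hb =>
      hnc (hb ▸ inferInstance)
    exact hcon x hxE hx1 (hbot ▸ bot_le)
  · have hgo : s ∣ orderOf (g : K) := by
      obtain ⟨k, hk⟩ := IsPGroup.iff_orderOf.1 hL g
      rw [Subgroup.orderOf_coe, hk]
      refine dvd_pow_self s fun hk0 => ?_
      rw [hk0, pow_zero, orderOf_eq_one_iff] at hk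
      apply hne
      rw [eq_bot_iff]
      intro w hw
      obtain ⟨j, hj⟩ := Subgroup.mem_zpowers_iff.1 (hg ⟨w, hw⟩)
      rw [hk, one_zpow] at hj
      rw [Subgroup.mem_bot]
      exact (congrArg Subtype.val hj).symm
    have hle : Subgroup.zpowers (g : K) ≤ Subgroup.zpowers ((g : K) ^ s) :=
      Subgroup.zpowers_le.2 (hbad g.2)
    have h1 := Nat.le_of_dvd Nat.card_pos (Subgroup.card_dvd_of_le hle)
    rw [Nat.card_zpowers, Nat.card_zpowers, orderOf_pow' _ (Fact.out : s.Prime).ne_zero,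
      Nat.gcd_eq_right hgo] at h1
    exact absurd h1 (not_le.2 (Nat.div_lt_self (orderOf_pos _) (Fact.out : s.Prime).one_lt))

theorem exists_mem_centralizer_of_eight {q : ℕ} [Fact q.Prime] (hq : q ≠ 2) {E : Subgroup K}
    (hE : IsMulCommutative E) (hnc : ¬ IsCyclic E) (hEq : ∀ x ∈ E, x ^ q = 1)
    (h8 : EightCore K) (hcop : (Nat.card E).Coprime (Nat.card (pCore 2 K))) :
    ∃ x ∈ E, x ≠ 1 ∧ pCore 2 K ≤ Subgroup.centralizer ({x} : Set K) := by
  obtain ⟨hcard, hamo, hLnc⟩ := h8
  set L := pCore 2 K with hLdef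
  obtain ⟨z0, hz0⟩ := exists_prime_orderOf_dvd_card' (G := L) 2 (by rw [hcard]; norm_num)
  -- an element of order four centralised by some element of `E`
  obtain ⟨x, hxE, hx1, c, hcL, hcx, hco⟩ : ∃ x ∈ E, x ≠ 1 ∧ ∃ c ∈ L,
      c ∈ Subgroup.centralizer ({x} : Set K) ∧ orderOf c = 4 := by
    by_contra hcon
    push Not at hcon
    have hle : L ≤ Subgroup.zpowers (z0 : K) := by
      refine CfsgLib.Coprime.le_of_centralizers hE hnc
        (by rw [Subgroup.normalizer_eq_top]; exact le_top) hcop fun a ha ha1 y hy => ?_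
      have hy2 : (⟨y, hy.1⟩ : L) * ⟨y, hy.1⟩ = 1 := by
        obtain ⟨j, hjle, hj⟩ := (Nat.dvd_prime_pow Nat.prime_two).1
          (show orderOf (⟨y, hy.1⟩ : L) ∣ 2 ^ 3 by
            rw [show (2 : ℕ) ^ 3 = 8 from rfl, ← hcard]; exact orderOf_dvd_natCard _)
        rw [← pow_two]
        refine orderOf_dvd_iff_pow_eq_one.1 ?_
        rw [hj]
        by_cases hj2 : j ≤ 1
        · exact (pow_dvd_pow 2 hj2).trans (by norm_num)
        exfalso
        refine hcon a ha ha1 (y ^ 2 ^ (j - 2)) (pow_mem hy.1 _) (pow_mem hy.2 _) ?_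
        rw [Subgroup.orderOf_mk] at hj
        rw [orderOf_pow' y (pow_pos two_pos _).ne', hj,
          Nat.gcd_eq_right (pow_dvd_pow 2 (Nat.sub_le j 2)), Nat.pow_div (Nat.sub_le j 2) two_pos,
          show j - (j - 2) = 2 by omega]
        norm_num
      rcases hamo.eq_one_or_eq hz0 hy2 with h1 | h1
      · rw [show y = 1 from congrArg Subtype.val h1]; exact one_mem _
      · rw [show y = (z0 : K) from congrArg Subtype.val h1]; exact Subgroup.mem_zpowers _
    have h1 := Nat.le_of_dvd Nat.card_pos (Subgroup.card_dvd_of_le hle)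
    rw [hcard, Nat.card_zpowers, Subgroup.orderOf_coe, hz0] at h1
    omega
  refine ⟨x, hxE, hx1, ?_⟩
  set C := Subgroup.zpowers c with hC
  have hCL : C ≤ L := Subgroup.zpowers_le.2 hcL
  have hidx : (C.subgroupOf L).index = 2 := by
    have h1 := (C.subgroupOf L).card_mul_index
    rw [Nat.card_congr (Subgroup.subgroupOfEquivOfLe hCL).toEquiv,
      show Nat.card C = 4 by rw [hC, Nat.card_zpowers, hco], hcard] at h1
    omega
  have hxc : x * c = c * x := Subgroup.mem_centralizer_iff.1 hcx x rfl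
  intro d hd
  rw [Subgroup.mem_centralizer_iff]
  intro w hw
  rw [Set.mem_singleton_iff] at hw
  subst hw
  by_cases hdC : d ∈ C
  · obtain ⟨i, rfl⟩ := Subgroup.mem_zpowers_iff.1 hdC
    exact (Commute.zpow_right hxc i).eq
  have hd' : w * d * w⁻¹ ∈ L := Subgroup.Normal.conj_mem inferInstance d hd w
  have hd'C : w * d * w⁻¹ ∉ C := by
    intro hmem
    obtain ⟨i, hi⟩ := Subgroup.mem_zpowers_iff.1 hmem
    apply hdC
    have : d = w⁻¹ * c ^ i * w := by rw [hi]; group
    rw [this, mul_assoc, ← (Commute.zpow_right hxc i).eq, inv_mul_cancel_left]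
    exact zpow_mem (Subgroup.mem_zpowers c) i
  have he : w * d * w⁻¹ * d⁻¹ ∈ C := by
    have h1 := (Subgroup.mul_mem_iff_of_index_two hidx (a := ⟨w * d * w⁻¹, hd'⟩)
      (b := ⟨d⁻¹, inv_mem hd⟩)).2 ⟨fun h => absurd h hd'C, fun h => absurd
        (by simpa [Subgroup.mem_subgroupOf] using h : d ∈ C) hdC⟩
    exact h1
  obtain ⟨i, hi⟩ := Subgroup.mem_zpowers_iff.1 he
  set e := w * d * w⁻¹ * d⁻¹ with hedef
  have hwe : w * e = e * w := hi ▸ (Commute.zpow_right hxc i).eq
  have hj : ∀ j : ℕ, w ^ j * d * (w ^ j)⁻¹ = e ^ j * d := by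
    intro j
    induction j with
    | zero => simp
    | succ j ih =>
      calc w ^ (j + 1) * d * (w ^ (j + 1))⁻¹ = w * (w ^ j * d * (w ^ j)⁻¹) * w⁻¹ := by
            rw [pow_succ']; group
        _ = (w * e ^ j * w⁻¹) * (w * d * w⁻¹) := by rw [ih]; group
        _ = e ^ j * (e * d) := by
            rw [(Commute.pow_right hwe j).eq, mul_inv_cancel_right,
              show e * d = w * d * w⁻¹ by rw [hedef, inv_mul_cancel_right]]
        _ = e ^ (j + 1) * d := by rw [pow_succ]; exact (mul_assoc _ _ _).symm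
  have h1 := hj q
  rw [hEq w hxE, one_mul, inv_one, mul_one, right_eq_mul] at h1
  have h2 : orderOf e ∣ 4 := by
    rw [← hco, ← hi]; exact orderOf_dvd_of_mem_zpowers (zpow_mem (Subgroup.mem_zpowers c) i)
  have h3 : orderOf e = 1 := Nat.eq_one_of_dvd_coprimes
    (show Nat.Coprime q 4 by
      rw [show (4 : ℕ) = 2 ^ 2 from rfl]
      exact ((Nat.coprime_primes Fact.out Nat.prime_two).2 hq).pow_right 2)
    (orderOf_dvd_of_pow_eq_one h1) h2
  rw [orderOf_eq_one_iff, hedef, mul_inv_eq_one, mul_inv_eq_iff_eq_mul] at h3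
  exact h3

/-- No noncyclic group of exponent `q` outside `O_q`. -/
theorem RankHyp.no_elementary (h : RankHyp K) {q : ℕ} [Fact q.Prime] (hq0 : pCore q K = ⊥)
    (h2 : IsCyclic (pCore 2 K) ∨ EightCore K) (E : Subgroup K) (hE : IsMulCommutative E)
    (hEq : ∀ x ∈ E, x ^ q = 1) : IsCyclic E := by
  by_contra hnc
  haveI := h.solvable
  have hEp : IsPGroup q E := fun x => ⟨1, Subtype.ext (by simpa using hEq x x.2)⟩
  have key : ∀ s : ℕ, s.Prime → ∀ y ∈ E, y ∈ Subgroup.centralizer (pCore s K : Set K) := by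
    intro s hs y hy
    haveI := Fact.mk hs
    rcases eq_or_ne y 1 with rfl | hy1
    · exact one_mem _
    rcases eq_or_ne s q with rfl | hsq
    · rw [hq0, Subgroup.mem_centralizer_iff]
      intro z hz
      rw [SetLike.mem_coe, Subgroup.mem_bot] at hz
      simp [hz]
    have hcop : (Nat.card E).Coprime (Nat.card (pCore s K)) := by
      obtain ⟨a, ha⟩ := IsPGroup.iff_card.1 hEp
      obtain ⟨b, hb⟩ := IsPGroup.iff_card.1 (isPGroup_pCore (p := s) (G := K))
      rw [ha, hb]
      exact ((Nat.coprime_primes Fact.out hs).2 hsq.symm).pow a b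
    obtain ⟨x, hxE, hx1, hx⟩ : ∃ x ∈ E, x ≠ 1 ∧ pCore s K ≤ Subgroup.centralizer ({x} : Set K) := by
      by_cases hc : IsCyclic (pCore s K)
      · exact exists_mem_centralizer_of_cyclic hE hnc _ isPGroup_pCore hc hcop hEq
      · have hs2 : s = 2 := by
          by_contra hs2
          exact hc (h.isCyclic_pCore hs hs2)
        subst hs2
        exact exists_mem_centralizer_of_eight hsq.symm hE hnc hEq (h2.resolve_left hc) hcop
    have hxo := orderOf_eq_prime (hEq x hxE) hx1
    have hyo := orderOf_eq_prime (hEq y hy) hy1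
    obtain ⟨r, hr⟩ := h.exists_conj_zpowers (hxo.trans hyo.symm)
    have hxc : x ∈ Subgroup.centralizer (pCore s K : Set K) :=
      Subgroup.mem_centralizer_iff.2 fun z hz => ((Subgroup.mem_centralizer_iff.1 (hx hz)) x rfl).symm
    exact Subgroup.zpowers_le.2 (Subgroup.Normal.conj_mem inferInstance x hxc r)
      (hr.symm ▸ Subgroup.mem_zpowers y)
  apply hnc
  have hbot : E = ⊥ := by
    rw [← le_bot_iff, ← hq0]
    intro y hy
    obtain ⟨k, hk⟩ := IsPGroup.iff_orderOf.1 hEp ⟨y, hy⟩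
    rw [Subgroup.orderOf_mk] at hk
    exact mem_pCore_of_mem_fitting (mem_fitting_of_centralizes fun s hs => key s hs y hy) hk
  exact hbot ▸ inferInstance

theorem mem_of_quaternion_of_four {P : Subgroup K} {k : ℕ}
    (e : P ≃* QuaternionGroup (2 ^ k)) (H : Subgroup K)
    (hH : ∀ x ∈ P, orderOf x = 4 → x ∈ H) : P ≤ H := by
  haveI : NeZero (2 ^ k) := ⟨(pow_pos two_pos k).ne'⟩
  have hxa : ∀ i : ZMod (2 * 2 ^ k), ((e.symm (QuaternionGroup.xa i) : P) : K) ∈ H := fun i =>
    hH _ (e.symm (QuaternionGroup.xa i)).2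
      (by rw [Subgroup.orderOf_coe, e.symm.orderOf_eq, QuaternionGroup.orderOf_xa])
  intro x hx
  obtain ⟨w, hw⟩ : ∃ w, e ⟨x, hx⟩ = w := ⟨_, rfl⟩
  have hx' : ((e.symm w : P) : K) = x := by rw [← hw, e.symm_apply_apply]
  rw [← hx']
  cases w with
  | a i =>
    have e1 : (QuaternionGroup.a i : QuaternionGroup (2 ^ k)) =
        (QuaternionGroup.xa 0)⁻¹ * QuaternionGroup.xa i := by
      rw [eq_inv_mul_iff_mul_eq, QuaternionGroup.xa_mul_a, zero_add]
    rw [e1, map_mul, map_inv, Subgroup.coe_mul, Subgroup.coe_inv]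
    exact mul_mem (inv_mem (hxa 0)) (hxa i)
  | xa i => exact hxa i

theorem exists_orderOf_four_of_not_elementary {P : Subgroup K} (hP : IsPGroup 2 P)
    (h : ∃ x ∈ P, x ^ 2 ≠ 1) : ∃ x ∈ P, orderOf x = 4 := by
  obtain ⟨x, hx, hx2⟩ := h
  obtain ⟨j, hj⟩ := IsPGroup.iff_orderOf.1 hP ⟨x, hx⟩
  rw [Subgroup.orderOf_mk] at hj
  have hj2 : 2 ≤ j := by
    by_contra hlt
    refine hx2 (orderOf_dvd_iff_pow_eq_one.1 ?_)
    rw [hj]
    exact (pow_dvd_pow 2 (show j ≤ 1 by omega)).trans (by norm_num)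
  refine ⟨x ^ 2 ^ (j - 2), pow_mem hx _, ?_⟩
  rw [orderOf_pow' x (pow_pos two_pos _).ne', hj, Nat.gcd_eq_right (pow_dvd_pow 2 (Nat.sub_le j 2)),
    Nat.pow_div (Nat.sub_le j 2) two_pos, show j - (j - 2) = 2 by omega]
  norm_num

theorem amo_of_core {P : Subgroup K}
    (h : ∀ x y : P, orderOf x = 2 → orderOf y = 2 → y ∈ Subgroup.zpowers x) :
    CfsgLib.TwoGroup.AtMostOneInvolution P := by
  intro x y hx hy
  have hy1 : y ≠ 1 := fun h1 => by rw [h1, orderOf_one] at hy; exact absurd hy (by norm_num)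
  obtain ⟨k, hk⟩ := Subgroup.mem_zpowers_iff.1 (h x y hx hy)
  rcases Int.emod_two_eq_zero_or_one k with h2 | h2
  · exfalso
    rw [← zpow_mod_orderOf, hx, show ((2 : ℕ) : ℤ) = 2 from rfl, h2, zpow_zero] at hk
    exact hy1 hk.symm
  · rw [← zpow_mod_orderOf, hx, show ((2 : ℕ) : ℤ) = 2 from rfl, h2, zpow_one] at hk
    exact hk

/-- A Sylow `2`-subgroup is cyclic, or it is the core, quaternion of order `8`. -/
theorem RankHyp.sylow_two (h : RankHyp K) (P : Sylow 2 K) :
    IsCyclic (P : Subgroup K) ∨ (EightCore K ∧ (P : Subgroup K) = pCore 2 K) := by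
  by_cases hPc : IsCyclic (P : Subgroup K)
  · exact Or.inl hPc
  right
  haveI := h.solvable
  have hOP : pCore 2 K ≤ (P : Subgroup K) := isPGroup_pCore.le_sylow_of_normal P
  rcases Cfsg.Agent.S3908.core h.abConj 2 P with hexp | huniq
  · -- elementary: impossible
    exfalso
    by_cases h0 : pCore 2 K = ⊥
    · refine hPc (h.no_elementary h0 (Or.inl (h0 ▸ inferInstance)) _ ?_ hexp)
      refine ⟨⟨fun a b => Subtype.ext ?_⟩⟩
      have hinv : ∀ c ∈ (P : Subgroup K), c⁻¹ = c := fun c hc =>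
        inv_eq_of_mul_eq_one_left (by rw [← pow_two]; exact hexp c hc)
      calc (a : K) * b = ((a : K) * b)⁻¹ := (hinv _ (mul_mem a.2 b.2)).symm
        _ = b * a := by rw [mul_inv_rev, hinv _ a.2, hinv _ b.2]
    · have hamo : CfsgLib.TwoGroup.AtMostOneInvolution (P : Subgroup K) := by
        refine amo_of_core fun x y hx hy => ?_
        obtain ⟨i, hi⟩ := Subgroup.mem_zpowers_iff.1 (h.uniq 2 Nat.prime_two h0 (x : K) y
          (by rw [Subgroup.orderOf_coe, hx]) (by rw [Subgroup.orderOf_coe, hy]))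
        exact ⟨i, Subtype.ext (by simpa using hi)⟩
      refine hPc (CfsgLib.TwoGroup.isCyclic_of_comm_atMostOneInvolution P.2 (fun a b => ?_) hamo)
      have hinv : ∀ c ∈ (P : Subgroup K), c⁻¹ = c := fun c hc =>
        inv_eq_of_mul_eq_one_left (by rw [← pow_two]; exact hexp c hc)
      refine Subtype.ext ?_
      calc (a : K) * b = ((a : K) * b)⁻¹ := (hinv _ (mul_mem a.2 b.2)).symm
        _ = b * a := by rw [mul_inv_rev, hinv _ a.2, hinv _ b.2]
  have hamo := amo_of_core huniq
  obtain ⟨k, -, ⟨φ⟩⟩ := (CfsgLib.TwoGroup.cyclic_or_quaternion P.2 hamo).resolve_left hPc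
  haveI : NeZero (2 ^ k) := ⟨(pow_pos two_pos k).ne'⟩
  obtain ⟨x, hxP, hxo⟩ : ∃ x ∈ (P : Subgroup K), orderOf x = 4 :=
    ⟨_, (φ.symm (QuaternionGroup.xa 0)).2,
      by rw [Subgroup.orderOf_coe, φ.symm.orderOf_eq, QuaternionGroup.orderOf_xa]⟩
  by_cases h4 : ∃ c ∈ pCore 2 K, orderOf c = 4
  · obtain ⟨c, hc, hco⟩ := h4
    have hall : ∀ w : K, orderOf w = 4 → w ∈ pCore 2 K := fun w hw =>
      h.mem_normal _ hc (hco.trans hw.symm)
    have hPO : (P : Subgroup K) = pCore 2 K :=
      le_antisymm (mem_of_quaternion_of_four φ _ fun w _ hw => hall w hw) hOP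
    refine ⟨?_, hPO⟩
    have hcard : Nat.card (P : Subgroup K) = 2 ^ (k + 2) := by
      rw [Nat.card_congr φ.toEquiv, Nat.card_eq_fintype_card, QuaternionGroup.card, pow_add]
      ring
    have hk1 : k = 1 := by
      rcases Nat.lt_trichotomy k 1 with hk | hk | hk
      · exfalso
        obtain rfl : k = 0 := by omega
        refine hPc (isCyclic_of_orderOf_eq_card ⟨x, hxP⟩ ?_)
        rw [Subgroup.orderOf_mk, hxo, hcard]
        rfl
      · exact hk
      exfalso
      set A : K := ((φ.symm (QuaternionGroup.a 1) : (P : Subgroup K)) : K) with hA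
      have hAo : orderOf A = 2 ^ (k + 1) := by
        rw [hA, Subgroup.orderOf_coe, φ.symm.orderOf_eq, QuaternionGroup.orderOf_a_one, pow_succ']
      have h8 : ∀ y ∈ (P : Subgroup K), orderOf y = 8 → y ∈ Subgroup.zpowers A := by
        intro y hy hyo
        obtain ⟨w, hw⟩ : ∃ w, φ ⟨y, hy⟩ = w := ⟨_, rfl⟩
        have hy' : ((φ.symm w : (P : Subgroup K)) : K) = y := by rw [← hw, φ.symm_apply_apply]
        cases w with
        | a i =>
          refine ⟨(i.val : ℤ), ?_⟩
          show A ^ ((i.val : ℕ) : ℤ) = y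
          rw [zpow_natCast, hA, ← Subgroup.coe_pow, ← map_pow, QuaternionGroup.a_one_pow,
            ZMod.natCast_zmod_val]
          exact hy'
        | xa i =>
          exfalso
          rw [← hy', Subgroup.orderOf_coe, φ.symm.orderOf_eq, QuaternionGroup.orderOf_xa] at hyo
          omega
      set y : K := A ^ 2 ^ (k - 2) with hy
      have hyP : y ∈ (P : Subgroup K) := pow_mem (φ.symm _).2 _
      have hyo : orderOf y = 8 := by
        rw [hy, orderOf_pow' A (pow_pos two_pos _).ne', hAo,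
          Nat.gcd_eq_right (pow_dvd_pow 2 (by omega)), Nat.pow_div (by omega) two_pos,
          show k + 1 - (k - 2) = 3 by omega]
        norm_num
      have hy2 : orderOf (y ^ 2) = 4 := by
        rw [orderOf_pow' y two_ne_zero, hyo]; norm_num
      have hCn : (Subgroup.zpowers (y ^ 2)).Normal := by
        refine ⟨fun n hn r => ?_⟩
        obtain ⟨i, rfl⟩ := Subgroup.mem_zpowers_iff.1 hn
        rw [← conj_zpow]
        refine zpow_mem ?_ i
        haveI : (P : Subgroup K).Normal := hPO ▸ inferInstance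
        have hryP : r * y * r⁻¹ ∈ (P : Subgroup K) := Subgroup.Normal.conj_mem inferInstance y hyP r
        have hA2 : r * y ^ 2 * r⁻¹ ∈ Subgroup.zpowers A := by
          rw [← conj_pow]
          exact pow_mem (h8 _ hryP (by rw [CfsgLib.Solvable.orderOf_conj, hyo])) 2
        exact mem_zpowers_of_mem_cyclic (C := Subgroup.zpowers A) inferInstance
          (pow_mem (pow_mem (Subgroup.mem_zpowers A) _) 2) hA2
          (by rw [CfsgLib.Solvable.orderOf_conj])
      haveI := hCn
      refine hPc ?_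
      have hPC : (P : Subgroup K) ≤ Subgroup.zpowers (y ^ 2) :=
        mem_of_quaternion_of_four φ _ fun w _ hw =>
          h.mem_normal _ (Subgroup.mem_zpowers _) (hy2.trans hw.symm)
      exact isCyclic_of_injective (Subgroup.inclusion hPC) (Subgroup.inclusion_injective hPC)
    refine ⟨?_, ?_, ?_⟩
    · rw [← hPO, hcard, hk1]; rfl
    · exact hPO ▸ hamo
    · exact hPO ▸ hPc
  · exfalso
    push Not at h4
    have hcyc : ∀ s : ℕ, s.Prime → IsCyclic (pCore s K) := by
      intro s hs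
      rcases eq_or_ne s 2 with rfl | hs2
      · have hO : ∀ w ∈ pCore 2 K, w ^ 2 = 1 := by
          by_contra hcon
          push Not at hcon
          obtain ⟨w, hw, hw4⟩ := exists_orderOf_four_of_not_elementary isPGroup_pCore hcon
          exact h4 w hw hw4
        have hamoO : CfsgLib.TwoGroup.AtMostOneInvolution (pCore 2 K) := fun a b ha hb =>
          Subtype.ext (show (a : K) = (b : K) from congrArg (fun u : (P : Subgroup K) => (u : K))
            (hamo ⟨a, hOP a.2⟩ ⟨b, hOP b.2⟩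
              (by rw [Subgroup.orderOf_mk, Subgroup.orderOf_coe, ha])
              (by rw [Subgroup.orderOf_mk, Subgroup.orderOf_coe, hb])))
        refine CfsgLib.TwoGroup.isCyclic_of_comm_atMostOneInvolution isPGroup_pCore (fun a b => ?_) hamoO
        have hinv : ∀ c ∈ pCore 2 K, c⁻¹ = c := fun c hc =>
          inv_eq_of_mul_eq_one_left (by rw [← pow_two]; exact hO c hc)
        refine Subtype.ext ?_
        calc (a : K) * b = ((a : K) * b)⁻¹ := (hinv _ (mul_mem a.2 b.2)).symm
          _ = b * a := by rw [mul_inv_rev, hinv _ a.2, hinv _ b.2]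
      · exact h.isCyclic_pCore hs hs2
    refine hPc ?_
    have hPx : (P : Subgroup K) ≤ Subgroup.zpowers x := by
      refine mem_of_quaternion_of_four φ _ fun y hyP hyo => ?_
      obtain ⟨r, hr⟩ := h.exists_conj_zpowers (hxo.trans hyo.symm)
      have hry : r * x * r⁻¹ ∈ (P : Subgroup K) :=
        Subgroup.zpowers_le.2 hyP (hr ▸ Subgroup.mem_zpowers _)
      have he : ⁅r, x⁆ ∈ (P : Subgroup K) := by
        rw [commutatorElement_def]; exact mul_mem hry (inv_mem hxP)
      obtain ⟨j, hj⟩ := IsPGroup.iff_orderOf.1 P.2 ⟨_, he⟩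
      rw [Subgroup.orderOf_mk] at hj
      have heO := mem_pCore_of_mem_fitting (commutator_mem_fitting h.solvable hcyc r x) hj
      have he2 : (⟨⁅r, x⁆, he⟩ : (P : Subgroup K)) * ⟨⁅r, x⁆, he⟩ = 1 := by
        refine Subtype.ext ?_
        show ⁅r, x⁆ * ⁅r, x⁆ = 1
        rw [← pow_two]
        by_contra hne
        obtain ⟨w, hw, hw4⟩ :=
          exists_orderOf_four_of_not_elementary (P := pCore 2 K) isPGroup_pCore ⟨_, heO, hne⟩
        exact h4 w hw hw4
      have hx2o : orderOf (⟨x ^ 2, pow_mem hxP 2⟩ : (P : Subgroup K)) = 2 := by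
        rw [Subgroup.orderOf_mk, orderOf_pow' x two_ne_zero, hxo]; norm_num
      have hex : ⁅r, x⁆ ∈ Subgroup.zpowers x := by
        rcases hamo.eq_one_or_eq hx2o he2 with h1 | h1
        · rw [show ⁅r, x⁆ = 1 from congrArg Subtype.val h1]; exact one_mem _
        · rw [show ⁅r, x⁆ = x ^ 2 from congrArg Subtype.val h1]; exact pow_mem (Subgroup.mem_zpowers x) 2
      have hrx : r * x * r⁻¹ ∈ Subgroup.zpowers x := by
        have : r * x * r⁻¹ = ⁅r, x⁆ * x := by rw [commutatorElement_def]; group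
        rw [this]
        exact mul_mem hex (Subgroup.mem_zpowers x)
      exact Subgroup.zpowers_le.2 hrx (hr.symm ▸ Subgroup.mem_zpowers y)
    exact isCyclic_of_injective (Subgroup.inclusion hPx) (Subgroup.inclusion_injective hPx)

theorem RankHyp.core_two (h : RankHyp K) : IsCyclic (pCore 2 K) ∨ EightCore K := by
  obtain ⟨P⟩ : Nonempty (Sylow 2 K) := inferInstance
  rcases h.sylow_two P with hc | ⟨h8, -⟩
  · left
    haveI := hc
    have hOP : pCore 2 K ≤ (P : Subgroup K) := isPGroup_pCore.le_sylow_of_normal P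
    exact isCyclic_of_injective (Subgroup.inclusion hOP) (Subgroup.inclusion_injective hOP)
  · exact Or.inr h8

/-- Sylow subgroups for odd primes are cyclic. -/
theorem RankHyp.sylow_odd (h : RankHyp K) {q : ℕ} [Fact q.Prime] (hq : q ≠ 2) (P : Sylow q K) :
    IsCyclic (P : Subgroup K) := by
  rcases Cfsg.Agent.S3908.core h.abConj q P with hexp | huniq
  swap
  · exact CfsgLib.PGroup.isCyclic_of_unique_subgroup hq P.2 huniq
  refine CfsgLib.PGroup.isCyclic_of_unique_subgroup hq P.2 fun u v hu hv => ?_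
  have hne1 : ∀ w : (P : Subgroup K), orderOf w = q → w ≠ 1 := fun w hw h1 => by
    rw [h1, orderOf_one] at hw; exact (Fact.out : q.Prime).ne_one hw.symm
  by_cases h0 : pCore q K = ⊥
  swap
  · obtain ⟨i, hi⟩ := Subgroup.mem_zpowers_iff.1 (h.uniq q Fact.out h0 (u : K) v
      (by rw [Subgroup.orderOf_coe, hu]) (by rw [Subgroup.orderOf_coe, hv]))
    exact ⟨i, Subtype.ext (by simpa using hi)⟩
  haveI : Nontrivial (P : Subgroup K) := ⟨u, 1, hne1 u hu⟩
  haveI := P.2.center_nontrivial
  obtain ⟨z, hz1⟩ := exists_ne (1 : Subgroup.center (P : Subgroup K))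
  set z1 : (P : Subgroup K) := (z : (P : Subgroup K)) with hz1def
  have key : ∀ w : (P : Subgroup K), w ∈ Subgroup.zpowers z1 := by
    intro w
    set E := Subgroup.closure {(z1 : K), (w : K)} with hE
    have hEP : E ≤ (P : Subgroup K) := by
      rw [hE, Subgroup.closure_le]
      rintro c (rfl | rfl)
      · exact z1.2
      · exact w.2
    have hcm : (z1 : K) * w = w * z1 :=
      congrArg Subtype.val (Subgroup.mem_center_iff.1 z.2 w).symm
    have hEc : IsMulCommutative E := Subgroup.isMulCommutative_closure (by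
      rintro c (rfl | rfl) d (rfl | rfl) <;> first | rfl | exact hcm | exact hcm.symm)
    have hcyc := h.no_elementary h0 h.core_two E hEc fun c hc => hexp c (hEP hc)
    have hzE : (z1 : K) ∈ E := Subgroup.subset_closure (by simp)
    have hwE : (w : K) ∈ E := Subgroup.subset_closure (by simp)
    rcases eq_or_ne w 1 with rfl | hw1
    · exact one_mem _
    have ho : ∀ c : (P : Subgroup K), c ≠ 1 → orderOf (c : K) = q := fun c hc1 =>
      orderOf_eq_prime (hexp c c.2) fun hh => hc1 (Subtype.ext hh)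
    obtain ⟨i, hi⟩ := Subgroup.mem_zpowers_iff.1 (mem_zpowers_of_mem_cyclic hcyc hzE hwE
      ((ho z1 fun hh => hz1 (Subtype.ext hh)).trans (ho w hw1).symm))
    exact ⟨i, Subtype.ext (by simpa using hi)⟩
  have hz1o : orderOf z1 = q := by
    rw [← Subgroup.orderOf_coe]
    exact orderOf_eq_prime (hexp z1 z1.2) fun hh => hz1 (Subtype.ext (Subtype.ext hh))
  have hle : Subgroup.zpowers u = Subgroup.zpowers z1 :=
    Subgroup.eq_of_le_of_card_ge (Subgroup.zpowers_le.2 (key u))
      (by rw [Nat.card_zpowers, Nat.card_zpowers, hu, hz1o])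
  exact hle ▸ key v

end CfsgLib.AbConjSolvable
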