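import Mathlib
import Cfsg.Agent.AbConjSolvable.Rank
import Cfsg.Agent.Solvable.Carter

/-!
In a finite solvable group in which abelian subgroups of the same order are conjugate, all subgroups
of the same order are conjugate.
-/

set_option autoImplicit false
set_option linter.style.haveILetI false

namespace CfsgLib.AbConjSolvable

open Cfsg CfsgLib.Constrained CfsgLib.Solvable
open scoped Pointwise commutatorElement

universe u

variable {G : Type u} [Group G] [Finite G]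

/-- Every minimal normal subgroup is a noncyclic Sylow subgroup meeting `A` properly. -/
def MinHyp (A : Subgroup G) : Prop :=
  ∀ (M : Subgroup G) (p k : ℕ), M.Normal → p.Prime → 0 < k → Nat.card M = p ^ k →
    IsMulCommutative M → (∀ x ∈ M, x ^ p = 1) → 2 ≤ k ∧ p ∣ Nat.card A ∧ ¬ M ≤ A

theorem component (hB : Cfsg.Agent.S3912.AbConj G) (hsol : Group.IsSolvable G) {A : Subgroup G}
    (hmin : MinHyp A) {p : ℕ} [Fact p.Prime] (hp : p ∣ Nat.card (fittingSubgroup G)) :
    IsMulCommutative (pCore p G) ∧ (∀ x ∈ pCore p G, x ^ p = 1) ∧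
      (∀ P : Sylow p G, (P : Subgroup G) = pCore p G) ∧
      A ⊓ pCore p G ≠ ⊥ ∧ ¬ pCore p G ≤ A := by
  haveI := hsol
  obtain ⟨x, hx⟩ := exists_prime_orderOf_dvd_card' (G := fittingSubgroup G) p hp
  have hxO : (x : G) ∈ pCore p G :=
    mem_pCore_of_mem_fitting (k := 1) x.2 (by rw [Subgroup.orderOf_coe, hx, pow_one])
  have hne : pCore p G ≠ ⊥ := fun h => (Fact.out : p.Prime).ne_one (by
    rw [← hx, show x = 1 from Subtype.ext (Subgroup.mem_bot.1 (h.le hxO)), orderOf_one])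
  obtain ⟨M, p', k, hMle, hMn, hM, -, hMab, hp', hk, hMc, hMexp⟩ :=
    exists_minimal_normal_elementary_le (pCore p G) inferInstance hne
  have hpp : p' = p := by
    obtain ⟨n, hn⟩ := IsPGroup.iff_card.1 (isPGroup_pCore (p := p) (G := G))
    have h1 : p' ∣ p ^ n := (dvd_pow_self p' hk.ne').trans
      (hMc ▸ hn ▸ Subgroup.card_dvd_of_le hMle)
    exact (Nat.prime_dvd_prime_iff_eq hp' Fact.out).1 (hp'.dvd_of_dvd_pow h1)
  subst hpp
  obtain ⟨hk2, hpA, hMA⟩ := hmin M p' k hMn hp' hk hMc hMab hMexp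
  haveI := hMn
  have hsyl := (Cfsg.Agent.S3909.result hB M).2 p' k hk2 hMc ⟨hMab, hMexp⟩
  obtain ⟨P0⟩ : Nonempty (Sylow p' G) := inferInstance
  have hMO : pCore p' G = M :=
    le_antisymm ((isPGroup_pCore.le_sylow_of_normal P0).trans (hsyl P0).le) hMle
  rw [hMO]
  refine ⟨hMab, hMexp, hsyl, fun h => ?_, hMA⟩
  obtain ⟨a, ha⟩ := exists_prime_orderOf_dvd_card' (G := A) p' hpA
  have hap : IsPGroup p' (Subgroup.zpowers (a : G)) := IsPGroup.of_card (n := 1) (by
    rw [Nat.card_zpowers, Subgroup.orderOf_coe, ha, pow_one])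
  obtain ⟨P, hP⟩ := hap.exists_le_sylow
  have h1 : (a : G) ∈ A ⊓ M := ⟨a.2, hsyl P ▸ hP (Subgroup.mem_zpowers _)⟩
  rw [h, Subgroup.mem_bot] at h1
  exact hp'.ne_one (by rw [← ha, show a = 1 from Subtype.ext h1, orderOf_one])

theorem dvd_card_of_pCore_ne_bot {p : ℕ} [Fact p.Prime] (h : pCore p G ≠ ⊥) :
    p ∣ Nat.card (fittingSubgroup G) := by
  haveI : Nontrivial (pCore p G) := (Subgroup.nontrivial_iff_ne_bot _).2 h
  obtain ⟨n, hn, hn'⟩ := (isPGroup_pCore (p := p) (G := G)).nontrivial_iff_card.1 inferInstance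
  refine Nat.dvd_trans ?_ (Subgroup.card_dvd_of_le (pCore_le_fitting (p := p)))
  rw [hn']
  exact dvd_pow_self p hn.ne'

theorem fitting_coprime (hB : Cfsg.Agent.S3912.AbConj G) (hsol : Group.IsSolvable G) {A : Subgroup G}
    (hmin : MinHyp A) :
    (Nat.card (fittingSubgroup G)).Coprime (fittingSubgroup G).index := by
  refine Nat.coprime_of_dvd fun p hp hpF hpi => ?_
  haveI := Fact.mk hp
  obtain ⟨P⟩ : Nonempty (Sylow p G) := inferInstance
  have hle : (P : Subgroup G) ≤ fittingSubgroup G :=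
    ((component hB hsol hmin hpF).2.2.1 P).le.trans pCore_le_fitting
  exact P.not_dvd_index (hpi.trans (Subgroup.index_dvd_of_le hle))

theorem fitting_comm (hB : Cfsg.Agent.S3912.AbConj G) (hsol : Group.IsSolvable G) {A : Subgroup G}
    (hmin : MinHyp A) :
    fittingSubgroup G ≤ Subgroup.centralizer (fittingSubgroup G : Set G) := by
  have h1 : ∀ p : ℕ, p.Prime → fittingSubgroup G ≤ Subgroup.centralizer (pCore p G : Set G) := by
    intro p hp
    haveI := Fact.mk hp
    rw [fitting_eq_iSup_pCore]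
    refine iSup₂_le fun q hq y hy => ?_
    haveI := Fact.mk hq
    rw [Subgroup.mem_centralizer_iff]
    intro z hz
    rcases eq_or_ne q p with rfl | hqp
    · by_cases hb : pCore q G = ⊥
      · rw [hb, Subgroup.mem_bot] at hy
        simp [hy]
      · haveI := (component hB hsol hmin (dvd_card_of_pCore_ne_bot hb)).1
        exact congrArg Subtype.val (mul_comm' (⟨z, hz⟩ : pCore q G) ⟨y, hy⟩)
    · refine (Subgroup.commute_of_normal_of_disjoint _ _ inferInstance inferInstance ?_ z y hz hy).eq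
      obtain ⟨a, ha⟩ := IsPGroup.iff_card.1 (isPGroup_pCore (p := p) (G := G))
      obtain ⟨b, hb⟩ := IsPGroup.iff_card.1 (isPGroup_pCore (p := q) (G := G))
      exact disjoint_of_coprime_card (by
        rw [ha, hb]; exact ((Nat.coprime_primes hp hq).2 hqp.symm).pow a b)
  rw [Subgroup.le_centralizer_iff]
  conv_lhs => rw [fitting_eq_iSup_pCore]
  exact iSup₂_le fun p hp => Subgroup.le_centralizer_iff.1 (h1 p hp)
where
  mul_comm' {H : Type u} [Mul H] [IsMulCommutative H] (a b : H) : a * b = b * a :=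
    IsMulCommutative.is_comm.comm a b

/-- Splitting a conjugating element. -/
theorem proj {F R : Subgroup G} [F.Normal] (hFR : Subgroup.IsComplement' F R) (g : G) :
    ∃ r ∈ R, ∃ f ∈ F, g = r * f ∧ (∀ x ∈ R, g * x * g⁻¹ ∈ R → g * x * g⁻¹ = r * x * r⁻¹) := by
  have hg : g ∈ R ⊔ F := by rw [sup_comm, hFR.sup_eq_top]; trivial
  obtain ⟨r, hr, f, hf, rfl⟩ := Subgroup.mem_sup_of_normal_right.1 hg
  refine ⟨r, hr, f, hf, rfl, fun x hx hgx => ?_⟩
  have h1 : f * x * f⁻¹ ∈ R := by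
    have h2 : f * x * f⁻¹ = r⁻¹ * (r * f * x * (r * f)⁻¹) * r := by group
    rw [h2]
    exact mul_mem (mul_mem (inv_mem hr) hgx) hr
  have h3 : f * x * f⁻¹ * x⁻¹ ∈ F := by
    rw [mul_assoc f x, mul_assoc f]
    exact mul_mem hf (Subgroup.Normal.conj_mem inferInstance _ (inv_mem hf) x)
  have h4 : f * x * f⁻¹ * x⁻¹ = 1 :=
    Subgroup.disjoint_def.1 hFR.disjoint h3 (mul_mem h1 (inv_mem hx))
  rw [mul_inv_eq_one] at h4
  calc r * f * x * (r * f)⁻¹ = r * (f * x * f⁻¹) * r⁻¹ := by group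
    _ = r * x * r⁻¹ := by rw [h4]

/-- Conjugation of elements of the abelian normal subgroup is realised in the complement. -/
theorem proj_fix {F R : Subgroup G} [F.Normal] (hFR : Subgroup.IsComplement' F R)
    (hF : F ≤ Subgroup.centralizer (F : Set G)) (g : G) :
    ∃ r ∈ R, ∀ x ∈ F, g * x * g⁻¹ = r * x * r⁻¹ := by
  obtain ⟨r, hr, f, hf, rfl, -⟩ := proj hFR g
  refine ⟨r, hr, fun x hx => ?_⟩
  have h1 : f * x = x * f := Subgroup.mem_centralizer_iff.1 (hF hx) f hf
  calc r * f * x * (r * f)⁻¹ = r * (f * x * f⁻¹) * r⁻¹ := by group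
    _ = r * x * r⁻¹ := by rw [h1, mul_inv_cancel_right]

theorem abConj_complement (hB : Cfsg.Agent.S3912.AbConj G) {F R : Subgroup G} [F.Normal]
    (hFR : Subgroup.IsComplement' F R) : Cfsg.Agent.S3912.AbConj R := by
  intro X Y hX hY hXY
  haveI := hX
  haveI := hY
  obtain ⟨g, hg⟩ := hB (X.map R.subtype) (Y.map R.subtype) inferInstance inferInstance
    (by rw [Subgroup.card_subtype, Subgroup.card_subtype, hXY])
  obtain ⟨r, hr, -, -, -, hrx⟩ := proj hFR g
  refine ⟨⟨r, hr⟩, (Subgroup.map_injective R.subtype_injective) ?_⟩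
  rw [hg]
  ext y
  constructor
  · rintro ⟨_, ⟨x, hx, rfl⟩, rfl⟩
    refine ⟨⟨r * x * r⁻¹, mul_mem (mul_mem hr x.2) (inv_mem hr)⟩, ⟨x, hx, rfl⟩, ?_⟩
    have hmem : g * (x : G) * g⁻¹ ∈ (Y.map R.subtype : Subgroup G) := hg.symm ▸ ⟨_, ⟨x, hx, rfl⟩, rfl⟩
    exact (hrx x x.2 (Subgroup.map_subtype_le _ hmem)).symm
  · rintro ⟨_, ⟨x, hx, rfl⟩, rfl⟩
    refine ⟨x, ⟨x, hx, rfl⟩, ?_⟩
    have hmem : g * (x : G) * g⁻¹ ∈ (Y.map R.subtype : Subgroup G) := hg.symm ▸ ⟨_, ⟨x, hx, rfl⟩, rfl⟩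
    exact hrx x x.2 (Subgroup.map_subtype_le _ hmem)

theorem rankHyp_complement (hB : Cfsg.Agent.S3912.AbConj G) (hsol : Group.IsSolvable G)
    {A : Subgroup G} (hmin : MinHyp A) {R : Subgroup G}
    (hFR : Subgroup.IsComplement' (fittingSubgroup G) R) : RankHyp R := by
  haveI := hsol
  refine ⟨inferInstance, abConj_complement hB hFR, fun q hq hO x y hx hy => ?_⟩
  haveI := Fact.mk hq
  obtain ⟨N, q', k, hNle, hNn, hN, -, hNab, hq', hk, hNc, hNexp⟩ :=
    exists_minimal_normal_elementary_le (pCore q R) inferInstance hO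
  have hqq : q' = q := by
    obtain ⟨n, hn⟩ := IsPGroup.iff_card.1 (isPGroup_pCore (p := q) (G := R))
    have h1 : q' ∣ q ^ n := (dvd_pow_self q' hk.ne').trans (hNc ▸ hn ▸ Subgroup.card_dvd_of_le hNle)
    exact (Nat.prime_dvd_prime_iff_eq hq' hq).1 (hq'.dvd_of_dvd_pow h1)
  subst hqq
  haveI := hNn
  have hR := abConj_complement hB hFR
  have hin : ∀ w : R, orderOf w = q' → w ∈ N := by
    intro w hw
    obtain ⟨n, hn⟩ := exists_prime_orderOf_dvd_card' (G := N) q' (hNc ▸ dvd_pow_self q' hk.ne')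
    exact (Cfsg.Agent.S3909.result hR N).1 w ⟨n, n.2, by rw [Subgroup.orderOf_coe, hn, hw]⟩
  suffices hc : IsCyclic N from mem_zpowers_of_mem_cyclic hc (hin x hx) (hin y hy) (hx.trans hy.symm)
  by_contra hnc
  -- push `N` into `G`
  set NG := N.map R.subtype with hNG
  have hNGab : IsMulCommutative NG := by haveI := hNab; exact inferInstance
  have hNGnc : ¬ IsCyclic NG := fun h => hnc (by
    haveI := h
    exact isCyclic_of_surjective (N.equivMapOfInjective R.subtype R.subtype_injective).symm.toMonoidHom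
      (N.equivMapOfInjective R.subtype R.subtype_injective).symm.surjective)
  have hRN : ∀ r ∈ R, ∀ n ∈ NG, r * n * r⁻¹ ∈ NG := by
    rintro r hr _ ⟨n, hn, rfl⟩
    exact ⟨_, hNn.conj_mem n hn ⟨r, hr⟩, rfl⟩
  have hFc := fitting_coprime hB hsol hmin
  have hFab := fitting_comm hB hsol hmin
  have hidx : (fittingSubgroup G).index = Nat.card R := hFR.symm.index_eq_card
  -- a component on which `N` acts faithfully
  obtain ⟨p, hp, n0, hn0, hn0M⟩ : ∃ p : ℕ, p.Prime ∧ ∃ n ∈ NG,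
      n ∉ Subgroup.centralizer (pCore p G : Set G) := by
    by_contra hcon
    push Not at hcon
    obtain ⟨n, hn, hn1⟩ := (Subgroup.bot_or_exists_ne_one NG).resolve_left fun hb =>
      hNGnc (hb ▸ inferInstance)
    exact hn1 (Subgroup.disjoint_def.1 hFR.disjoint
      (mem_fitting_of_centralizes fun p hp => hcon p hp n hn) (Subgroup.map_subtype_le N hn))
  haveI := Fact.mk hp
  have hMne : pCore p G ≠ ⊥ := fun hb => hn0M (by
    rw [hb, Subgroup.mem_centralizer_iff]; intro z hz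
    rw [SetLike.mem_coe, Subgroup.mem_bot] at hz; simp [hz])
  obtain ⟨hMab, hMexp, -, -, -⟩ := component hB hsol hmin (dvd_card_of_pCore_ne_bot hMne)
  set M := pCore p G with hM
  have hfaith : ∀ n ∈ NG, n ∈ Subgroup.centralizer (M : Set G) → n = 1 := by
    rintro _ ⟨n, hn, rfl⟩ hnM
    by_contra hn1
    apply hn0M
    obtain ⟨m, hm, rfl⟩ := hn0
    rcases eq_or_ne m 1 with rfl | hm1
    · exact one_mem _
    have hno : orderOf n = q' := orderOf_eq_prime (hNexp n hn) fun h => hn1 (by rw [h]; rfl)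
    have hmo : orderOf m = q' := orderOf_eq_prime (hNexp m hm) hm1
    obtain ⟨r, hr⟩ := hR (Subgroup.zpowers n) (Subgroup.zpowers m) inferInstance inferInstance
      (by rw [Nat.card_zpowers, Nat.card_zpowers, hno, hmo])
    obtain ⟨w, hw, hwm⟩ : m ∈ (Subgroup.zpowers n).map (MulAut.conj r).toMonoidHom :=
      hr ▸ Subgroup.mem_zpowers m
    rw [← hwm]
    show (r : G) * (w : G) * (r : G)⁻¹ ∈ Subgroup.centralizer (M : Set G)
    refine Subgroup.Normal.conj_mem inferInstance _ ?_ _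
    obtain ⟨i, rfl⟩ := Subgroup.mem_zpowers_iff.1 hw
    exact zpow_mem hnM i
  have hcop : (Nat.card NG).Coprime (Nat.card M) := by
    refine ((hFc.symm.coprime_dvd_left (hidx ▸ Subgroup.card_dvd_of_le (Subgroup.map_subtype_le N)))
      |>.coprime_dvd_right (Subgroup.card_dvd_of_le pCore_le_fitting))
  -- a fixed vector
  obtain ⟨a, haN, ha1, v, hvM, hva, hv1⟩ : ∃ a ∈ NG, a ≠ 1 ∧ ∃ v ∈ M,
      v ∈ Subgroup.centralizer ({a} : Set G) ∧ v ≠ 1 := by
    by_contra hcon
    push Not at hcon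
    exact hMne (le_bot_iff.1 (CfsgLib.Coprime.le_of_centralizers hNGab hNGnc
      (by rw [Subgroup.normalizer_eq_top]; exact le_top) hcop
      fun a ha ha1 w hw => Subgroup.mem_bot.2 (hcon a ha ha1 w hw.1 hw.2)))
  -- all stabilisers of vectors have the same order
  have hle : ∀ v ∈ M, v ≠ 1 → ∀ w ∈ M, w ≠ 1 →
      Nat.card (NG ⊓ Subgroup.centralizer ({v} : Set G) : Subgroup G) ≤
        Nat.card (NG ⊓ Subgroup.centralizer ({w} : Set G) : Subgroup G) := by
    intro v hvM hv1 w hwM hw1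
    have hvo : orderOf v = p := orderOf_eq_prime (hMexp v hvM) hv1
    have hwo : orderOf w = p := orderOf_eq_prime (hMexp w hwM) hw1
    obtain ⟨g, hg⟩ := hB (Subgroup.zpowers v) (Subgroup.zpowers w) inferInstance inferInstance
      (by rw [Nat.card_zpowers, Nat.card_zpowers, hvo, hwo])
    obtain ⟨r, hr, hrx⟩ := proj_fix hFR hFab g
    obtain ⟨_, ⟨i, rfl⟩, hi⟩ : w ∈ (Subgroup.zpowers v).map (MulAut.conj g).toMonoidHom :=
      hg ▸ Subgroup.mem_zpowers w
    have hw' : w = r * v ^ i * r⁻¹ := by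
      rw [← hrx _ (pCore_le_fitting (zpow_mem hvM i))]; exact hi.symm
    refine Nat.card_le_card_of_injective (fun n => ⟨r * n * r⁻¹,
      ⟨hRN r hr n n.2.1, ?_⟩⟩) ?_
    · refine Subgroup.mem_centralizer_iff.2 fun z hz => ?_
      rw [Set.mem_singleton_iff] at hz
      subst hz
      have h1 : v * (n : G) = (n : G) * v := Subgroup.mem_centralizer_iff.1 n.2.2 v rfl
      have h2 : v ^ i * (n : G) = (n : G) * v ^ i := (Commute.zpow_left h1 i).eq
      rw [hw']
      calc r * v ^ i * r⁻¹ * (r * n * r⁻¹) = r * (v ^ i * n) * r⁻¹ := by group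
        _ = r * n * r⁻¹ * (r * v ^ i * r⁻¹) := by rw [h2]; group
    · intro n m hnm
      have := congrArg Subtype.val hnm
      simpa using this
  obtain ⟨w, hw, hwa⟩ : ∃ w ∈ ⁅M, Subgroup.zpowers a⁆, w ≠ 1 := by
    by_contra hcon
    push Not at hcon
    refine ha1 (hfaith a haN (Subgroup.mem_centralizer_iff.2 fun z hz => ?_))
    exact commutatorElement_eq_one_iff_mul_comm.1
      (hcon _ (Subgroup.commutator_mem_commutator hz (Subgroup.mem_zpowers a)))
  have hwM : w ∈ M := (Subgroup.commutator_le_left M (Subgroup.zpowers a)) hw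
  have hdis : ⁅M, Subgroup.zpowers a⁆ ⊓ (M ⊓ Subgroup.centralizer ({a} : Set G)) = ⊥ := by
    rw [← Subgroup.centralizer_closure, ← Subgroup.zpowers_eq_closure, ← inf_assoc,
      inf_eq_left.2 (Subgroup.commutator_le_left M (Subgroup.zpowers a))]
    refine CfsgLib.Coprime.commutator_inf_centralizer_eq_bot hMab
      (by rw [Subgroup.normalizer_eq_top]; exact le_top) ?_
    exact hcop.coprime_dvd_left (Subgroup.card_dvd_of_le (Subgroup.zpowers_le.2 haN))
  have hvw1 : v * w ≠ 1 := by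
    intro h
    have : w ∈ ⁅M, Subgroup.zpowers a⁆ ⊓ (M ⊓ Subgroup.centralizer ({a} : Set G)) := by
      refine ⟨hw, hwM, ?_⟩
      rw [eq_inv_of_mul_eq_one_right h]
      exact Subgroup.inv_mem _ hva
    rw [hdis, Subgroup.mem_bot] at this
    exact hwa this
  set K0 := NG ⊓ Subgroup.centralizer ({v} : Set G) with hK0
  set K1 := NG ⊓ Subgroup.centralizer ({v * w} : Set G) with hK1
  have hsub : K1 ≤ K0 := by
    rintro n ⟨hn, hnc'⟩
    refine ⟨hn, Subgroup.mem_centralizer_iff.2 fun z hz => ?_⟩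
    rw [Set.mem_singleton_iff.1 hz]
    have hna : n * a = a * n := by
      haveI := hNGab
      exact congrArg Subtype.val (fitting_comm.mul_comm' (⟨n, hn⟩ : NG) ⟨a, haN⟩)
    have hwn : n * w * n⁻¹ ∈ ⁅M, Subgroup.zpowers a⁆ := by
      have hnw : (MulAut.conj n).toMonoidHom w ∈
          (⁅M, Subgroup.zpowers a⁆).map (MulAut.conj n).toMonoidHom := Subgroup.mem_map_of_mem _ hw
      rw [Subgroup.map_commutator, show M.map (MulAut.conj n).toMonoidHom = M by
          rw [← conj_smul_eq_map]; exact conj_smul_le_of_mem_normal n,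
        MonoidHom.map_zpowers] at hnw
      rwa [show (MulAut.conj n).toMonoidHom a = a by
        show n * a * n⁻¹ = a
        rw [hna, mul_inv_cancel_right]] at hnw
    have h1 : n * (v * w) * n⁻¹ = v * w := by
      rw [← Subgroup.mem_centralizer_iff.1 hnc' (v * w) rfl, mul_inv_cancel_right]
    have h2 : v⁻¹ * (n * v * n⁻¹) = w * (n * w * n⁻¹)⁻¹ := by
      rw [eq_mul_inv_iff_mul_eq, mul_assoc, inv_mul_eq_iff_eq_mul]
      calc n * v * n⁻¹ * (n * w * n⁻¹) = n * (v * w) * n⁻¹ := by group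
        _ = v * w := h1
    have hva' : v * a = a * v := (Subgroup.mem_centralizer_iff.1 hva a rfl).symm
    have h3 : v⁻¹ * (n * v * n⁻¹) ∈ M ⊓ Subgroup.centralizer ({a} : Set G) := by
      refine ⟨Subgroup.mul_mem _ (Subgroup.inv_mem _ hvM) (Subgroup.Normal.conj_mem inferInstance v hvM n),
        Subgroup.mul_mem _ (Subgroup.inv_mem _ hva) ?_⟩
      refine Subgroup.mem_centralizer_iff.2 fun u hu => ?_
      rw [Set.mem_singleton_iff] at hu
      subst hu
      have hc1 : Commute u n := hna.symm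
      exact ((hc1.mul_right hva'.symm).mul_right hc1.inv_right).eq
    have h4 : v⁻¹ * (n * v * n⁻¹) = 1 := by
      have : v⁻¹ * (n * v * n⁻¹) ∈ ⁅M, Subgroup.zpowers a⁆ ⊓
          (M ⊓ Subgroup.centralizer ({a} : Set G)) := ⟨h2 ▸ Subgroup.mul_mem _ hw (Subgroup.inv_mem _ hwn), h3⟩
      rwa [hdis, Subgroup.mem_bot] at this
    rw [inv_mul_eq_one] at h4
    exact (eq_mul_inv_iff_mul_eq.1 h4)
  have hvwM : v * w ∈ M := mul_mem hvM hwM
  have heq : K1 = K0 := Subgroup.eq_of_le_of_card_ge hsub (hle v hvM hv1 (v * w) hvwM hvw1)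
  have haK : a ∈ K0 := ⟨haN, Subgroup.mem_centralizer_iff.2 fun z hz => by
    rw [Set.mem_singleton_iff] at hz; subst hz
    exact (Subgroup.mem_centralizer_iff.1 hva a rfl).symm⟩
  rw [← heq] at haK
  have hwc : w ∈ ⁅M, Subgroup.zpowers a⁆ ⊓ (M ⊓ Subgroup.centralizer ({a} : Set G)) := by
    refine ⟨hw, hwM, ?_⟩
    have h1 : v * w ∈ Subgroup.centralizer ({a} : Set G) := Subgroup.mem_centralizer_iff.2 fun z hz => by
      rw [Set.mem_singleton_iff] at hz; subst hz
      exact (Subgroup.mem_centralizer_iff.1 haK.2 (v * w) rfl).symm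
    simpa using Subgroup.mul_mem _ (Subgroup.inv_mem _ hva) h1
  rw [hdis, Subgroup.mem_bot] at hwc
  exact hwa hwc

/-- A subgroup of order `p ^ a` through `v` avoiding `w`, in an elementary group of order `> p ^ a`. -/
theorem exists_through_avoiding {p a : ℕ} [Fact p.Prime] (ha : 1 ≤ a) {M : Subgroup G}
    (hMc : p ^ a < Nat.card M) (hab : IsMulCommutative M) (hexp : ∀ x ∈ M, x ^ p = 1)
    {v w : G} (hv : v ∈ M) (hw : w ∈ M) (hwv : w ∉ Subgroup.zpowers v) :
    ∃ V : Subgroup G, V ≤ M ∧ Nat.card V = p ^ a ∧ v ∈ V ∧ w ∉ V := by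
  classical
  have hp : p.Prime := Fact.out
  have hcz : ∀ x ∈ M, Nat.card (Subgroup.zpowers x) ≤ p := fun x hx => by
    rw [Nat.card_zpowers]
    exact Nat.le_of_dvd hp.pos (orderOf_dvd_of_pow_eq_one (hexp x hx))
  obtain ⟨V, ⟨hVM, hvV, hwV, hVc⟩, hVmax⟩ := Set.Finite.exists_maximal
    (s := {V : Subgroup G | V ≤ M ∧ v ∈ V ∧ w ∉ V ∧ Nat.card V ≤ p ^ a}) (Set.toFinite _)
    ⟨Subgroup.zpowers v, Subgroup.zpowers_le.2 hv, Subgroup.mem_zpowers v, hwv,
      (hcz v hv).trans (Nat.le_self_pow (by omega) p)⟩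
  refine ⟨V, hVM, ?_, hvV, hwV⟩
  have hMpg : IsPGroup p M := fun x => ⟨1, Subtype.ext (by simpa using hexp x x.2)⟩
  obtain ⟨i, hi⟩ := IsPGroup.iff_card.1 (hMpg.to_le hVM)
  rcases Nat.lt_or_ge i a with hlt | hge
  swap
  · refine le_antisymm hVc ?_
    rw [hi]; exact Nat.pow_le_pow_right hp.pos hge
  exfalso
  haveI := hab
  have hnorm : ∀ u ∈ M, Subgroup.zpowers u ≤ Subgroup.normalizer (V : Set G) := by
    intro u hu
    refine le_trans ?_ (Subgroup.centralizer_le_normalizer (V : Set G))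
    rw [Subgroup.zpowers_le, Subgroup.mem_centralizer_iff]
    intro y hy
    exact congrArg Subtype.val (fitting_comm.mul_comm' (⟨y, hVM hy⟩ : M) ⟨u, hu⟩)
  have hcard : ∀ u ∈ M, Nat.card (V ⊔ Subgroup.zpowers u : Subgroup G) ≤ p ^ (i + 1) := by
    intro u hu
    calc Nat.card (V ⊔ Subgroup.zpowers u : Subgroup G)
        = ((Subgroup.zpowers u : Set G) * (V : Set G)).ncard := by
          rw [sup_comm, ← Subgroup.coe_mul_of_left_le_normalizer_right _ V (hnorm u hu)]
          exact Nat.card_coe_set_eq _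
      _ ≤ Nat.card (Subgroup.zpowers u) * Nat.card V := by
          rw [← Nat.card_coe_set_eq]; exact Set.natCard_mul_le
      _ ≤ p ^ (i + 1) := by
          rw [pow_succ', hi]; exact Nat.mul_le_mul_right _ (hcz u hu)
  have hall : M ≤ V ⊔ Subgroup.zpowers w := by
    intro u hu
    by_cases huV : u ∈ V
    · exact Subgroup.mem_sup_left huV
    have hin : w ∈ V ⊔ Subgroup.zpowers u := by
      by_contra hnot
      exact huV (hVmax (y := V ⊔ Subgroup.zpowers u)
        ⟨sup_le hVM (Subgroup.zpowers_le.2 hu), Subgroup.mem_sup_left hvV, hnot,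
          (hcard u hu).trans (Nat.pow_le_pow_right hp.pos hlt)⟩ le_sup_left
        (Subgroup.mem_sup_right (Subgroup.mem_zpowers u)))
    have hle : V ⊔ Subgroup.zpowers w ≤ V ⊔ Subgroup.zpowers u :=
      sup_le le_sup_left (Subgroup.zpowers_le.2 hin)
    have hlt' : V < V ⊔ Subgroup.zpowers w :=
      lt_of_le_not_ge le_sup_left fun h => hwV (h (Subgroup.mem_sup_right (Subgroup.mem_zpowers w)))
    obtain ⟨j, hj⟩ := IsPGroup.iff_card.1
      (hMpg.to_le (sup_le hVM (Subgroup.zpowers_le.2 hw)))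
    have hij : i < j := by
      have h1 : Nat.card V < Nat.card (V ⊔ Subgroup.zpowers w : Subgroup G) :=
        lt_of_le_of_ne (Nat.le_of_dvd Nat.card_pos (Subgroup.card_dvd_of_le hlt'.le))
          fun h => hlt'.ne (Subgroup.eq_of_le_of_card_ge hlt'.le h.ge)
      rw [hi, hj] at h1
      exact (Nat.pow_lt_pow_iff_right hp.one_lt).1 h1
    have heq : V ⊔ Subgroup.zpowers w = V ⊔ Subgroup.zpowers u :=
      Subgroup.eq_of_le_of_card_ge hle ((hcard u hu).trans (by
        rw [hj]; exact Nat.pow_le_pow_right hp.pos hij))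
    rw [heq]
    exact Subgroup.mem_sup_right (Subgroup.mem_zpowers u)
  have h1 := Nat.le_of_dvd Nat.card_pos (Subgroup.card_dvd_of_le hall)
  have h2 : p ^ (i + 1) ≤ p ^ a := Nat.pow_le_pow_right hp.pos hlt
  have h3 := hcard w hw
  omega

theorem not_normalizes (hB : Cfsg.Agent.S3912.AbConj G) (hsol : Group.IsSolvable G)
    {A : Subgroup G} (hmin : MinHyp A) {R : Subgroup G}
    (hFR : Subgroup.IsComplement' (fittingSubgroup G) R) {P : Subgroup G} (hPR : P ≤ R)
    (hPn : ∀ r ∈ R, ∀ x ∈ P, r * x * r⁻¹ ∈ P)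
    (hPU : ∀ x ∈ P, ∀ u ∈ A ⊓ fittingSubgroup G, x * u * x⁻¹ ∈ A ⊓ fittingSubgroup G)
    {x y : G} (hx : x ∈ P) (hy : y ∈ P) : x * y = y * x := by
  haveI := hsol
  have hFab := fitting_comm hB hsol hmin
  rw [← commutatorElement_eq_one_iff_mul_comm]
  have hcR : ⁅x, y⁆ ∈ R := by
    rw [commutatorElement_def]
    exact mul_mem (mul_mem (mul_mem (hPR hx) (hPR hy)) (inv_mem (hPR hx))) (inv_mem (hPR hy))
  refine Subgroup.disjoint_def.1 hFR.disjoint (mem_fitting_of_centralizes fun p hp => ?_) hcR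
  haveI := Fact.mk hp
  rw [Subgroup.mem_centralizer_iff]
  intro v hv
  by_cases hb : pCore p G = ⊥
  · rw [hb, SetLike.mem_coe, Subgroup.mem_bot] at hv
    simp [hv]
  obtain ⟨hMab, hMexp, -, hUne, hMA⟩ := component hB hsol hmin (dvd_card_of_pCore_ne_bot hb)
  set M := pCore p G with hM
  have hMpg : IsPGroup p M := isPGroup_pCore
  obtain ⟨a, ha⟩ := IsPGroup.iff_card.1 (hMpg.to_le (inf_le_right : A ⊓ M ≤ M))
  have ha1 : 1 ≤ a := by
    by_contra h
    obtain rfl : a = 0 := by omega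
    exact hUne (Subgroup.card_eq_one.1 (by simpa using ha))
  have haM : p ^ a < Nat.card M := by
    rw [← ha]
    refine lt_of_le_of_ne (Nat.le_of_dvd Nat.card_pos (Subgroup.card_dvd_of_le inf_le_right))
      fun h => hMA ?_
    rw [← Subgroup.eq_of_le_of_card_ge inf_le_right h.ge]
    exact inf_le_left
  have hline : ∀ x ∈ P, ∀ v ∈ M, x * v * x⁻¹ ∈ Subgroup.zpowers v := by
    intro x hx v hv
    by_contra hnot
    obtain ⟨V, hVM, hVc, hvV, hwV⟩ := exists_through_avoiding ha1 haM hMab hMexp hv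
      (Subgroup.Normal.conj_mem inferInstance v hv x) hnot
    haveI := hMab
    have hVab : IsMulCommutative V := ⟨⟨fun b c => Subtype.ext (congrArg Subtype.val
      (fitting_comm.mul_comm' (⟨b, hVM b.2⟩ : M) ⟨c, hVM c.2⟩) :)⟩⟩
    have hUab : IsMulCommutative (A ⊓ M : Subgroup G) := ⟨⟨fun b c => Subtype.ext (congrArg Subtype.val
      (fitting_comm.mul_comm' (⟨b, b.2.2⟩ : M) ⟨c, c.2.2⟩) :)⟩⟩
    obtain ⟨g, hg⟩ := hB (A ⊓ M) V hUab hVab (ha.trans hVc.symm)
    obtain ⟨r, hr, hrx⟩ := proj_fix hFR hFab g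
    apply hwV
    have hvV' : v ∈ (A ⊓ M).map (MulAut.conj g).toMonoidHom := hg ▸ hvV
    obtain ⟨u, hu, huv⟩ := hvV'
    have huF : u ∈ fittingSubgroup G := pCore_le_fitting hu.2
    have huv' : r * u * r⁻¹ = v := by rw [← hrx u huF]; exact huv
    have hx' : r⁻¹ * x * r ∈ P := by
      simpa using hPn r⁻¹ (inv_mem hr) x hx
    have hu' : r⁻¹ * x * r * u * (r⁻¹ * x * r)⁻¹ ∈ A ⊓ M :=
      ⟨(hPU _ hx' u ⟨hu.1, huF⟩).1, Subgroup.Normal.conj_mem inferInstance u hu.2 _⟩
    rw [hg]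
    refine ⟨_, hu', ?_⟩
    show g * (r⁻¹ * x * r * u * (r⁻¹ * x * r)⁻¹) * g⁻¹ = x * v * x⁻¹
    rw [hrx _ (pCore_le_fitting hu'.2), ← huv']
    group
  have h2 : ⁅x, y⁆ * v * ⁅x, y⁆⁻¹ = v := by
    have e : ⁅x, y⁆ = x * y * (y * x)⁻¹ := by rw [commutatorElement_def]; group
    have hkey : ∀ v' ∈ M, x * y * v' * (x * y)⁻¹ = y * x * v' * (y * x)⁻¹ := by
      intro v' hv'
      obtain ⟨i', hi'⟩ := Subgroup.mem_zpowers_iff.1 (hline x hx v' hv')
      obtain ⟨j', hj'⟩ := Subgroup.mem_zpowers_iff.1 (hline y hy v' hv')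
      calc x * y * v' * (x * y)⁻¹ = x * (y * v' * y⁻¹) * x⁻¹ := by group
        _ = (x * v' * x⁻¹) ^ j' := by rw [← hj', conj_zpow]
        _ = (y * v' * y⁻¹) ^ i' := by rw [← hi', ← hj', ← zpow_mul, ← zpow_mul, mul_comm]
        _ = y * (x * v' * x⁻¹) * y⁻¹ := by rw [← hi', conj_zpow]
        _ = y * x * v' * (y * x)⁻¹ := by group
    rw [e]
    have h3 := hkey ((y * x)⁻¹ * v * (y * x))
      (by simpa using Subgroup.Normal.conj_mem inferInstance v hv (y * x)⁻¹)
    calc x * y * (y * x)⁻¹ * v * (x * y * (y * x)⁻¹)⁻¹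
        = x * y * ((y * x)⁻¹ * v * (y * x)) * (x * y)⁻¹ := by group
      _ = y * x * ((y * x)⁻¹ * v * (y * x)) * (y * x)⁻¹ := h3
      _ = v := by group
  exact (mul_inv_eq_iff_eq_mul.1 h2).symm

end CfsgLib.AbConjSolvable
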